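import Cfsg.Agent.LocalLemmas.SylowGraph
import Cfsg.Prelude.Def_SylowChains
import Mathlib.Logic.Relation
import Mathlib.Data.Fin.Tuple.Basic

/-!
Linked Sylow subgroups, and families induced by a normalizer functor.
-/

set_option autoImplicit false

namespace CfsgLib.SylowLink

open Subgroup CfsgLib.LocalLemmas

variable {G : Type*} [Group G] {p : ℕ}

/-- One link of a chain of Sylow subgroups. -/
def Step (𝓕 : Set (Subgroup G)) (D : Subgroup G) (a b : Sylow p G) : Prop :=
  ∃ (X : Subgroup G) (x : G), X ∈ Cfsg.sylowMembers p 𝓕 (a : Subgroup G) ∧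
    X ∈ Cfsg.sylowMembers p 𝓕 (b : Subgroup G) ∧ x ∈ X ∧
    Cfsg.subgroupConjRight x (b : Subgroup G) = (a : Subgroup G) ∧ D ≤ (b : Subgroup G) ⊓ X

theorem Step.mono {𝓕 : Set (Subgroup G)} {D D' : Subgroup G} (h : D ≤ D') {a b : Sylow p G}
    (hs : Step 𝓕 D' a b) : Step 𝓕 D a b := by
  obtain ⟨X, x, h1, h2, h3, h4, h5⟩ := hs
  exact ⟨X, x, h1, h2, h3, h4, h.trans h5⟩

theorem linked_mono {𝓕 : Set (Subgroup G)} {D D' : Subgroup G} (h : D ≤ D') {a b : Sylow p G}
    (hs : Relation.ReflTransGen (Step 𝓕 D') a b) : Relation.ReflTransGen (Step 𝓕 D) a b :=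
  hs.mono (fun _ _ => Step.mono h) _ _

theorem controls_of_linked {𝓕 : Set (Subgroup G)}
    (h : ∀ S T : Sylow p G, S ≠ T → (S : Subgroup G) ⊓ (T : Subgroup G) ≠ ⊥ →
      Relation.ReflTransGen (Step 𝓕 ((S : Subgroup G) ⊓ (T : Subgroup G))) S T) :
    Cfsg.ControlsSylowIntersections p 𝓕 := by
  intro S T hST hne
  have key : ∀ {D : Subgroup G} {a : Sylow p G}, Relation.ReflTransGen (Step 𝓕 D) a T →
      ∃ (n : ℕ) (c : Fin (n + 1) → Sylow p G) (X : Fin n → Subgroup G) (x : Fin n → G),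
        c 0 = a ∧ c (Fin.last n) = T ∧ ∀ i : Fin n,
        X i ∈ Cfsg.sylowMembers p 𝓕 (c i.castSucc : Subgroup G) ∧ X i ∈ Cfsg.sylowMembers p 𝓕 (c i.succ : Subgroup G) ∧
        x i ∈ X i ∧ Cfsg.subgroupConjRight (x i) (c i.succ : Subgroup G) = (c i.castSucc : Subgroup G) ∧
        D ≤ (c i.succ : Subgroup G) ⊓ X i := by
    intro D a hr
    induction hr using Relation.ReflTransGen.head_induction_on with
    | refl => exact ⟨0, fun _ => T, fun i => i.elim0, fun i => i.elim0, rfl, rfl, fun i => i.elim0⟩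
    | @head a b hab _ ih =>
      obtain ⟨n, c, X, x, h0, hn, hstep⟩ := ih
      obtain ⟨Y, y, h1, h2, h3, h4, h5⟩ := hab
      refine ⟨n + 1, Fin.cons a c, Fin.cons Y X, Fin.cons y x, by simp, ?_, fun i => ?_⟩
      · rw [← Fin.succ_last, Fin.cons_succ, hn]
      · refine Fin.cases ?_ (fun j => ?_) i
        · simp only [Fin.castSucc_zero, Fin.cons_zero, Fin.cons_succ, h0]
          exact ⟨h1, h2, h3, h4, h5⟩
        · simp only [← Fin.succ_castSucc, Fin.cons_succ]
          exact hstep j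
  exact key (h S T hST hne)

theorem linked_of_controls {𝓕 : Set (Subgroup G)} (h : Cfsg.ControlsSylowIntersections p 𝓕) (S T : Sylow p G)
    (hne : (S : Subgroup G) ⊓ (T : Subgroup G) ≠ ⊥) :
    Relation.ReflTransGen (Step 𝓕 ((S : Subgroup G) ⊓ (T : Subgroup G))) S T := by
  by_cases hST : S = T
  · subst hST; exact Relation.ReflTransGen.refl
  obtain ⟨n, c, X, x, h0, hn, hstep⟩ := h S T hST hne
  have : ∀ i : Fin (n + 1), Relation.ReflTransGen (Step 𝓕 ((S : Subgroup G) ⊓ (T : Subgroup G))) S (c i) := by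
    intro i
    induction i using Fin.induction with
    | zero => rw [h0]
    | succ j ih =>
      obtain ⟨h1, h2, h3, h4, h5⟩ := hstep j
      exact ih.tail ⟨X j, x j, h1, h2, h3, h4, h5⟩
  exact hn ▸ this (Fin.last n)

variable [Finite G] [Fact p.Prime]

theorem mem_sylowMembers_of_le {𝓕 : Set (Subgroup G)} (c : Sylow p G) {X : Subgroup G} (hX : X ∈ 𝓕)
    (hc : (c : Subgroup G) ≤ X) : X ∈ Cfsg.sylowMembers p 𝓕 (c : Subgroup G) := by
  refine ⟨hX, c.subtype hc, ?_⟩
  rw [Sylow.coe_subtype, subgroupOf_map_subtype]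

/-- A Sylow subgroup meeting `X` in a Sylow subgroup of `X` lies in `X` as soon as `X` contains one. -/
theorem le_of_mem_sylowMembers {𝓕 : Set (Subgroup G)} {c P : Sylow p G} {X : Subgroup G}
    (hc : X ∈ Cfsg.sylowMembers p 𝓕 (c : Subgroup G)) (hP : (P : Subgroup G) ≤ X) : (c : Subgroup G) ≤ X := by
  obtain ⟨-, Q, hQ⟩ := hc
  have h1 : Nat.card (Q : Subgroup X) = Nat.card (c : Subgroup G) := by
    rw [Sylow.card_eq_multiplicity Q, ← Sylow.card_eq_multiplicity (P.subtype hP), Sylow.coe_subtype,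
      Nat.card_congr (subgroupOfEquivOfLe hP).toEquiv, Sylow.card_eq_multiplicity P, Sylow.card_eq_multiplicity c]
  rw [← card_map_of_injective X.subtype_injective, hQ] at h1
  have := eq_of_le_of_card_ge (inf_le_left : (c : Subgroup G) ⊓ X ≤ c) h1.ge
  exact inf_eq_left.mp this

section Functor

variable (f : Subgroup G → Set (Subgroup G))

/-- A link inside `M` by the family induced by `f`. -/
def InStep (M D a b : Subgroup G) : Prop :=
  ∃ (P : Sylow p M) (F : Subgroup G) (x : G), F ∈ f ((P : Subgroup M).map M.subtype) ∧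
    a ≤ Subgroup.normalizer (F : Set G) ∧ b ≤ Subgroup.normalizer (F : Set G) ∧
    x ∈ M ⊓ Subgroup.normalizer (F : Set G) ∧ Cfsg.subgroupConjRight x b = a ∧ D ≤ b

variable {f}

theorem map_subgroupConjRight {M : Subgroup G} (x : M) (H : Subgroup M) :
    (Cfsg.subgroupConjRight x H).map M.subtype = Cfsg.subgroupConjRight (x : G) (H.map M.subtype) := by
  rw [Cfsg.subgroupConjRight, Cfsg.subgroupConjRight, Subgroup.map_map, Subgroup.map_map]
  congr 1

/-- Chains in a regular subgroup, seen in `G`. -/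
theorem linked_in_regular (hf : Cfsg.IsNormalizerFunctor p f) {M : Subgroup G}
    (hM : Cfsg.IsFunctorRegular p f M) (a b : Sylow p M)
    (hne : (a : Subgroup M).map M.subtype ⊓ (b : Subgroup M).map M.subtype ≠ ⊥) :
    Relation.ReflTransGen (fun u v : Sylow p M => InStep (p := p) f M
        ((a : Subgroup M).map M.subtype ⊓ (b : Subgroup M).map M.subtype)
        ((u : Subgroup M).map M.subtype) ((v : Subgroup M).map M.subtype)) a b := by
  have hne' : (a : Subgroup M) ⊓ (b : Subgroup M) ≠ ⊥ := fun e => hne (by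
    rw [← Subgroup.map_inf _ _ _ M.subtype_injective, e, Subgroup.map_bot])
  refine (linked_of_controls hM a b hne').mono ?_ a b
  rintro u v ⟨X, x, hu, hv, hx, hconj, hD⟩
  obtain ⟨Y, ⟨P, F, hF, rfl⟩, rfl⟩ := hu.1
  set P' := (P : Subgroup M).map M.subtype
  have hP' : P' ≤ Subgroup.normalizer (F : Set G) :=
    Subgroup.le_normalizer.trans (((hf P' (P.isPGroup'.map _)).1 F hF).2)
  have hPX : (P : Subgroup M) ≤ (M ⊓ Subgroup.normalizer (F : Set G)).subgroupOf M := fun q hq =>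
    ⟨q.2, hP' ⟨q, hq, rfl⟩⟩
  refine ⟨P, F, x, hF, ?_, ?_, hx, ?_, ?_⟩
  · rintro _ ⟨q, hq, rfl⟩; exact (le_of_mem_sylowMembers hu hPX hq).2
  · rintro _ ⟨q, hq, rfl⟩; exact (le_of_mem_sylowMembers hv hPX hq).2
  · rw [← map_subgroupConjRight, hconj]
  · rw [← Subgroup.map_inf _ _ _ M.subtype_injective]
    exact Subgroup.map_mono (hD.trans inf_le_left)

/-- The map from Sylow subgroups of `⊤` back to `G`. -/
theorem regular_top_of_linked
    (h : ∀ S T : Sylow p G, S ≠ T → (S : Subgroup G) ⊓ (T : Subgroup G) ≠ ⊥ →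
      Relation.ReflTransGen (fun u v : Sylow p G => InStep (p := p) f ⊤ ((S : Subgroup G) ⊓ (T : Subgroup G))
        (u : Subgroup G) (v : Subgroup G)) S T) :
    Cfsg.IsFunctorRegular p f ⊤ := by
  refine controls_of_linked fun S T hST hne => ?_
  have hmap : ∀ P : Sylow p (⊤ : Subgroup G), ∃ P' : Sylow p G,
      (P' : Subgroup G) = (P : Subgroup (⊤ : Subgroup G)).map (⊤ : Subgroup G).subtype :=
    fun P => ⟨P.mapSurjective (f := (⊤ : Subgroup G).subtype) (fun y => ⟨⟨y, mem_top y⟩, rfl⟩),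
      Sylow.coe_mapSurjective _ _⟩
  obtain ⟨S', hS'⟩ := hmap S
  obtain ⟨T', hT'⟩ := hmap T
  have hback : ∀ (P : Sylow p (⊤ : Subgroup G)) (P' : Sylow p G),
      (P' : Subgroup G) = (P : Subgroup (⊤ : Subgroup G)).map (⊤ : Subgroup G).subtype →
      P'.subtype le_top = P := fun P P' e => Sylow.ext (by
    rw [Sylow.coe_subtype, e, subgroupOf, comap_map_eq_self_of_injective (⊤ : Subgroup G).subtype_injective])
  have h1 := h S' T' (fun e => hST (by rw [← hback S S' hS', ← hback T T' hT', e])) (by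
    rw [hS', hT', ← Subgroup.map_inf _ _ _ (⊤ : Subgroup G).subtype_injective]
    exact fun e => hne ((map_eq_bot_iff_of_injective _ (⊤ : Subgroup G).subtype_injective).mp e))
  rw [← hback S S' hS', ← hback T T' hT']
  refine h1.lift (fun P : Sylow p G => P.subtype le_top) ?_
  rintro u v ⟨P, F, x, hF, hu, hv, hx, hconj, hD⟩
  refine ⟨_, ⟨x, mem_top x⟩,
    mem_sylowMembers_of_le (u.subtype le_top) ⟨_, ⟨P, F, hF, rfl⟩, rfl⟩ fun y hy => ⟨y.2, hu hy⟩,
    mem_sylowMembers_of_le (v.subtype le_top) ⟨_, ⟨P, F, hF, rfl⟩, rfl⟩ fun y hy => ⟨y.2, hv hy⟩, hx, ?_, ?_⟩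
  · apply Subgroup.map_injective (⊤ : Subgroup G).subtype_injective
    rw [map_subgroupConjRight, Sylow.coe_subtype, Sylow.coe_subtype, subgroupOf_map_subtype, subgroupOf_map_subtype,
      inf_top_eq, inf_top_eq]
    exact hconj
  · intro y hy
    exact ⟨hD hy, y.2, hv (hD hy)⟩

end Functor

end CfsgLib.SylowLink
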